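import Mathlib

/-! The numerical inequalities for primitive linear groups of odd order. -/

set_option autoImplicit false

namespace Cfsg.Agent.H52.RegPair

theorem pow_bound_A (e : ℕ) (he : 3 ≤ e) : 152 * e ^ 6 ≤ 4 ^ (4 * e - 3) := by
  induction e, he using Nat.le_induction with
  | base => norm_num
  | succ e he ih =>
    calc 152 * (e + 1) ^ 6 ≤ 152 * (2 * e) ^ 6 :=
          Nat.mul_le_mul_left _ (Nat.pow_le_pow_left (by omega) _)
      _ = 64 * (152 * e ^ 6) := by ring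
      _ ≤ 256 * 4 ^ (4 * e - 3) := Nat.mul_le_mul (by norm_num) ih
      _ = 4 ^ (4 * (e + 1) - 3) := by
        rw [show 4 * (e + 1) - 3 = 4 + (4 * e - 3) by omega, pow_add]; norm_num

theorem succ_pow_le {a c n e : ℕ} (ha : 0 < a) (hae : a ≤ e) (h : (a + 1) ^ n ≤ c * a ^ n) :
    (e + 1) ^ n ≤ c * e ^ n := by
  refine Nat.le_of_mul_le_mul_left ?_ (pow_pos ha n)
  calc a ^ n * (e + 1) ^ n = (a * (e + 1)) ^ n := (mul_pow _ _ _).symm
    _ ≤ ((a + 1) * e) ^ n := Nat.pow_le_pow_left (by rw [mul_add, add_mul, mul_one, one_mul]; omega) _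
    _ = (a + 1) ^ n * e ^ n := mul_pow _ _ _
    _ ≤ c * a ^ n * e ^ n := Nat.mul_le_mul_right _ h
    _ = a ^ n * (c * e ^ n) := by ring

theorem pow_bound_B (e : ℕ) (he : 25 ≤ e) : 8 * e ^ 18 ≤ 4 ^ (2 * e - 3) := by
  induction e, he using Nat.le_induction with
  | base => norm_num
  | succ e he ih =>
    have h3 : (e + 1) ^ 18 ≤ 16 * e ^ 18 :=
      succ_pow_le (by norm_num : 0 < 25) he (by norm_num)
    calc 8 * (e + 1) ^ 18 ≤ 8 * (16 * e ^ 18) := Nat.mul_le_mul_left _ h3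
      _ = 16 * (8 * e ^ 18) := by ring
      _ ≤ 16 * 4 ^ (2 * e - 3) := Nat.mul_le_mul_left _ ih
      _ = 4 ^ (2 * (e + 1) - 3) := by
        rw [show 2 * (e + 1) - 3 = 2 + (2 * e - 3) by omega, pow_add]; norm_num

theorem pow_bound_C (e : ℕ) (he : 11 ≤ e) : 2 * e ^ 6 ≤ 8 ^ (e - 2) := by
  induction e, he using Nat.le_induction with
  | base => norm_num
  | succ e he ih =>
    have h3 : (e + 1) ^ 6 ≤ 8 * e ^ 6 :=
      succ_pow_le (by norm_num : 0 < 11) he (by norm_num)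
    calc 2 * (e + 1) ^ 6 ≤ 2 * (8 * e ^ 6) := Nat.mul_le_mul_left _ h3
      _ = 8 * (2 * e ^ 6) := by ring
      _ ≤ 8 * 8 ^ (e - 2) := Nat.mul_le_mul_left _ ih
      _ = 8 ^ (e + 1 - 2) := by
        rw [show e + 1 - 2 = 1 + (e - 2) by omega, pow_add, pow_one]

/-- The three inequalities. -/
theorem arith_main {q m e h : ℕ} (hodd : Odd e) (he : 3 ≤ e) (hem : e ≤ m) (hq4 : 4 ≤ q)
    (hq : IsPrimePow q) (hdvd : ∀ r, r.Prime → r ∣ e → r ∣ q - 1) (hh : h ≤ (e * e) ^ 2)
    (h3 : e = 3 → h ≤ 1) (h5 : e = 5 → h ≤ 3) (h7 : e = 7 → h ≤ 3) (h9 : e = 9 → h ≤ 5) :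
    (16 * (q * (e * e))) ^ 3 ≤ 27 * (q ^ m) ^ 4 ∧
      (h ≤ 1 ∨ 8 * (q * (e * e) * h) ^ 3 ≤ (q ^ m) ^ 2) ∧
      (q = 8 ∨ 27 ≤ q → 2 * q * (q * (e * e) * h) ≤ q ^ m) := by
  refine ⟨?_, ?_, ?_⟩
  · calc (16 * (q * (e * e))) ^ 3 ≤ 27 * 152 * q ^ 3 * e ^ 6 := by
          ring_nf; exact Nat.mul_le_mul_left _ (by norm_num)
      _ = 27 * (q ^ 3 * (152 * e ^ 6)) := by ring
      _ ≤ 27 * (q ^ 3 * q ^ (4 * m - 3)) := Nat.mul_le_mul_left _ (Nat.mul_le_mul_left _
          ((pow_bound_A e he).trans ((Nat.pow_le_pow_left hq4 _).trans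
            (Nat.pow_le_pow_right (by omega) (by omega)))))
      _ = 27 * (q ^ m) ^ 4 := by rw [← pow_add, ← pow_mul]; congr 2; omega
  · by_cases he3 : e = 3
    · exact Or.inl (h3 he3)
    right
    have key : 8 * (e ^ 6 * h ^ 3) ≤ q ^ (2 * e - 3) := by
      have hbig : ∀ H, h ≤ H → ∀ Q, Q ≤ q → 8 * (e ^ 6 * H ^ 3) ≤ Q ^ (2 * e - 3) →
          8 * (e ^ 6 * h ^ 3) ≤ q ^ (2 * e - 3) := fun H hH Q hQ hle =>
        (Nat.mul_le_mul_left _ (Nat.mul_le_mul_left _ (Nat.pow_le_pow_left hH _))).trans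
          (hle.trans (Nat.pow_le_pow_left hQ _))
      have hd : ∀ r, r.Prime → r ∣ e → r + 1 ≤ q := fun r hr hre => by
        have := Nat.le_of_dvd (by omega) (hdvd r hr hre); omega
      by_cases he25 : 25 ≤ e
      · refine hbig _ hh 4 hq4 ?_
        calc 8 * (e ^ 6 * ((e * e) ^ 2) ^ 3) = 8 * e ^ 18 := by ring
          _ ≤ _ := pow_bound_B e he25
      obtain ⟨k, rfl⟩ := hodd
      have hk : k < 12 := by omega
      interval_cases k
      · omega
      · omega
      · refine hbig _ (h5 rfl) 11 ?_ (by norm_num)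
        have h1 := hd 5 (by norm_num) (by norm_num)
        have h2 := hdvd 5 (by norm_num) (by norm_num)
        rcases Nat.lt_or_ge q 11 with hlt | hge
        · obtain rfl : q = 6 := by omega
          obtain ⟨p, -, huniq⟩ := isPrimePow_iff_unique_prime_dvd.1 hq
          have hp2 := huniq 2 ⟨Nat.prime_two, by norm_num⟩
          have hp3 := huniq 3 ⟨Nat.prime_three, by norm_num⟩
          omega
        · exact hge
      · exact hbig _ (h7 rfl) 8 (hd 7 (by norm_num) (by norm_num)) (by norm_num)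
      · exact hbig _ (h9 rfl) 4 hq4 (by norm_num)
      · exact hbig _ hh 12 (hd 11 (by norm_num) (by norm_num)) (by norm_num)
      · exact hbig _ hh 14 (hd 13 (by norm_num) (by norm_num)) (by norm_num)
      · refine hbig _ hh 16 ?_ (by norm_num)
        have h1 := hdvd 3 (by norm_num) (by norm_num)
        have h2 := hdvd 5 (by norm_num) (by norm_num)
        omega
      · exact hbig _ hh 18 (hd 17 (by norm_num) (by norm_num)) (by norm_num)
      · exact hbig _ hh 20 (hd 19 (by norm_num) (by norm_num)) (by norm_num)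
      · refine hbig _ hh 22 ?_ (by norm_num)
        have h1 := hdvd 3 (by norm_num) (by norm_num)
        have h2 := hdvd 7 (by norm_num) (by norm_num)
        omega
      · exact hbig _ hh 24 (hd 23 (by norm_num) (by norm_num)) (by norm_num)
    calc 8 * (q * (e * e) * h) ^ 3 = q ^ 3 * (8 * (e ^ 6 * h ^ 3)) := by ring
      _ ≤ q ^ 3 * q ^ (2 * m - 3) := Nat.mul_le_mul_left _
          (key.trans (Nat.pow_le_pow_right (by omega) (by omega)))
      _ = (q ^ m) ^ 2 := by rw [← pow_add, ← pow_mul]; congr 1; omega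
  · intro hq8
    have hq8' : 8 ≤ q := by omega
    have key : 2 * (e * e * h) ≤ q ^ (e - 2) := by
      have hbig : ∀ H, h ≤ H → ∀ Q, Q ≤ q → 2 * (e * e * H) ≤ Q ^ (e - 2) →
          2 * (e * e * h) ≤ q ^ (e - 2) := fun H hH Q hQ hle =>
        (Nat.mul_le_mul_left _ (Nat.mul_le_mul_left _ hH)).trans
          (hle.trans (Nat.pow_le_pow_left hQ _))
      by_cases he11 : 11 ≤ e
      · refine hbig _ hh 8 hq8' ?_
        calc 2 * (e * e * (e * e) ^ 2) = 2 * e ^ 6 := by ring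
          _ ≤ _ := pow_bound_C e he11
      obtain ⟨k, rfl⟩ := hodd
      have hk : k < 5 := by omega
      interval_cases k
      · omega
      · refine hbig _ (h3 rfl) 18 ?_ (by norm_num)
        rcases hq8 with rfl | h27
        · have := hdvd 3 (by norm_num) (by norm_num)
          omega
        · omega
      · exact hbig _ (h5 rfl) 8 hq8' (by norm_num)
      · exact hbig _ (h7 rfl) 8 hq8' (by norm_num)
      · exact hbig _ (h9 rfl) 8 hq8' (by norm_num)
    calc 2 * q * (q * (e * e) * h) = q ^ 2 * (2 * (e * e * h)) := by ring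
      _ ≤ q ^ 2 * q ^ (m - 2) := Nat.mul_le_mul_left _
          (key.trans (Nat.pow_le_pow_right (by omega) (by omega)))
      _ = q ^ m := by rw [← pow_add]; congr 1; omega

end Cfsg.Agent.H52.RegPair
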