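import Mathlib

/-! The final summation for primitive linear groups. -/

set_option autoImplicit false

namespace Cfsg.Agent.H52.RegPair

/-- Weighted bound for a sum with few terms. -/
theorem sum_bound {α : Type*} (s : Finset α) (x : α → ℕ) {a n R : ℕ} (hn : 0 < n)
    (hcard : s.card ≤ n) (hx : ∀ i ∈ s, a * n * x i ≤ R) : a * ∑ i ∈ s, x i ≤ R := by
  refine Nat.le_of_mul_le_mul_left ?_ hn
  calc n * (a * ∑ i ∈ s, x i) = ∑ i ∈ s, a * n * x i := by
        rw [Finset.mul_sum, Finset.mul_sum]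
        exact Finset.sum_congr rfl fun i _ => by ring
    _ ≤ ∑ _i ∈ s, R := Finset.sum_le_sum hx
    _ = s.card * R := by rw [Finset.sum_const, smul_eq_mul]
    _ ≤ n * R := Nat.mul_le_mul_right _ hcard

theorem le_of_cube {a x b Q k : ℕ} (hx : x ^ 3 ≤ Q) (h : a ^ 3 * Q ≤ (k * b) ^ 3) : a * x ≤ k * b := by
  refine le_of_pow_le_pow_left₀ three_ne_zero (Nat.zero_le _) ?_
  rw [mul_pow]
  exact (Nat.mul_le_mul_left _ hx).trans h

theorem total_bound {SE SB SA R : ℕ} (hR : 0 < R) (hE : 16 * SE ≤ 3 * R) (hB : 2 * SB ≤ R)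
    (hA : 4 * SA ≤ R ∨ (SB = 0 ∧ 2 * SA ≤ R)) : SE + SB + SA < R := by
  omega

end Cfsg.Agent.H52.RegPair
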