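import Cfsg.Agent.H52.RegPair.Field

/-! Counting fixed vectors in semilinear groups. -/

set_option autoImplicit false
set_option linter.unusedSectionVars false

namespace Cfsg.Agent.H52.RegPair

universe u

variable {G : Type u} [Group G] {V : Type u} [AddCommGroup V] [DistribMulAction G V] [Finite V]

variable (V) in
/-- The fixed vectors of an element. -/
def fixV (g : G) : AddSubgroup V where
  carrier := {v | g • v = v}
  zero_mem' := smul_zero g
  add_mem' := fun hv hw => by
    show g • (_ + _) = _ + _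
    rw [smul_add, hv, hw]
  neg_mem' := fun hv => by
    show g • (-_) = -_
    rw [smul_neg, hv]

/-- Without a regular pair the fixed vectors cover all pairs. -/
theorem regVec_of_count [Finite G] [DecidableEq G] [Fintype G] [FaithfulSMul G V]
    (h : ∑ g ∈ Finset.univ.erase (1 : G), Nat.card (fixV V g) ^ 2 < Nat.card V ^ 2) :
    ∃ v w : V, RegVec G V v w := by
  by_contra hno
  push Not at hno
  let T := Σ g : {g : G // g ∈ Finset.univ.erase (1 : G)}, fixV V (g : G) × fixV V (g : G)
  let f : T → V × V := fun t => (t.2.1, t.2.2)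
  have hf : Function.Surjective f := by
    rintro ⟨v, w⟩
    have := hno v w
    simp only [RegVec, not_forall] at this
    obtain ⟨g, hv, hw, x, hx⟩ := this
    refine ⟨⟨⟨g, Finset.mem_erase.2 ⟨fun h => hx (by rw [h, one_smul]), Finset.mem_univ _⟩⟩,
      ⟨v, hv⟩, ⟨w, hw⟩⟩, rfl⟩
  have hle := Nat.card_le_card_of_surjective f hf
  rw [Nat.card_prod, Nat.card_sigma] at hle
  simp only [Nat.card_prod] at hle
  rw [Finset.sum_coe_sort (Finset.univ.erase (1 : G))
    (fun g => Nat.card (fixV V g) * Nat.card (fixV V g))] at hle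
  simp only [pow_two] at h
  omega

/-- An element moved nontrivially by scalars. -/
theorem fix_semilinear {K : Type u} [Field K] [Module K V] (g : G) {k k' : K} (hne : k' ≠ k)
    (hk : ∀ v : V, g • (k • v) = k' • (g • v)) : Nat.card (fixV V g) ^ 2 ≤ Nat.card V := by
  rw [pow_two, ← Nat.card_prod]
  refine Nat.card_le_card_of_injective (fun p : fixV V g × fixV V g => (p.1 : V) + k • (p.2 : V)) ?_
  rintro ⟨⟨a, ha⟩, ⟨b, hb⟩⟩ ⟨⟨c, hc⟩, ⟨d, hd⟩⟩ h
  change a + k • b = c + k • d at h
  have hg := congrArg (g • ·) h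
  simp only [smul_add, hk] at hg
  rw [show g • a = a from ha, show g • b = b from hb, show g • c = c from hc,
    show g • d = d from hd] at hg
  have h0 : (k' - k) • (b - d) = 0 := by
    have e1 : k' • (b - d) = c - a := by
      rw [smul_sub, sub_eq_sub_iff_add_eq_add, add_comm _ a, hg]
    have e2 : k • (b - d) = c - a := by
      rw [smul_sub, sub_eq_sub_iff_add_eq_add, add_comm _ a, h]
    rw [sub_smul, e1, e2, sub_self]
  obtain rfl : b = d := sub_eq_zero.1 ((smul_eq_zero.1 h0).resolve_left (sub_ne_zero.2 hne))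
  obtain rfl : a = c := add_right_cancel h
  rfl

/-- Three translates of the fixed vectors are independent. -/
theorem fix_cube {K : Type u} [Field K] [Module K V] (g y : G)
    (hg : ∀ (k : K) (v : V), g • (k • v) = k • (g • v))
    (hy : ∀ (k : K) (v : V), y • (k • v) = k • (y • v)) {ζ : K} (h1 : ζ ≠ 1) (h2 : ζ + 1 ≠ 0)
    (h0 : ζ ≠ 0) (hz : ∀ v : V, g • (y • v) = ζ • (y • (g • v))) :
    Nat.card (fixV V g) ^ 3 ≤ Nat.card V := by
  let f : fixV V g × fixV V g × fixV V g →+ V :=
    { toFun := fun p => (p.1 : V) + y • (p.2.1 : V) + y • y • (p.2.2 : V)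
      map_zero' := by simp
      map_add' := fun p q => by
        simp only [Prod.fst_add, Prod.snd_add, AddSubgroup.coe_add, smul_add]
        abel }
  have hf : Function.Injective f := by
    rw [injective_iff_map_eq_zero]
    rintro ⟨⟨a, ha⟩, ⟨b, hb⟩, ⟨c, hc⟩⟩ h
    change a + y • b + y • y • c = 0 at h
    have hb' : g • (y • b) = ζ • (y • b) := by rw [hz, show g • b = b from hb]
    have hc' : g • (y • y • c) = (ζ * ζ) • (y • y • c) := by
      rw [hz, hz, show g • c = c from hc, hy, smul_smul]
    have hstep := congrArg (g • ·) h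
    simp only [smul_add, smul_zero] at hstep
    rw [show g • a = a from ha, hb', hc'] at hstep
    set b' := y • b with hb''
    set c' := y • y • c with hc''
    clear_value b' c'
    have e1 : (ζ - 1) • (b' + (ζ + 1) • c') = 0 := by
      calc (ζ - 1) • (b' + (ζ + 1) • c') = (a + ζ • b' + (ζ * ζ) • c') - (a + b' + c') := by module
        _ = 0 := by rw [hstep, h, sub_zero]
    have e2 : b' + (ζ + 1) • c' = 0 := (smul_eq_zero.1 e1).resolve_left (sub_ne_zero.2 h1)
    have e3 : ζ • b' + ((ζ + 1) * (ζ * ζ)) • c' = 0 := by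
      have := congrArg (g • ·) e2
      simp only [smul_add, smul_zero, hg] at this
      rwa [hb', hc', smul_smul] at this
    have e4 : (ζ * (ζ + 1) * (ζ - 1)) • c' = 0 := by
      calc (ζ * (ζ + 1) * (ζ - 1)) • c'
          = (ζ • b' + ((ζ + 1) * (ζ * ζ)) • c') - ζ • (b' + (ζ + 1) • c') := by module
        _ = 0 := by rw [e3, e2, smul_zero, sub_zero]
    have e5 : c' = 0 := (smul_eq_zero.1 e4).resolve_left
      (mul_ne_zero (mul_ne_zero h0 h2) (sub_ne_zero.2 h1))
    rw [e5, smul_zero, add_zero] at e2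
    have ea : a = 0 := by
      rw [e5, e2, add_zero, add_zero] at h
      exact h
    rw [hb'', smul_eq_zero_iff_eq] at e2
    rw [hc'', smul_eq_zero_iff_eq, smul_eq_zero_iff_eq] at e5
    subst ea e2 e5
    rfl
  refine le_of_eq_of_le ?_ (Nat.card_le_card_of_injective f hf)
  rw [Nat.card_prod, Nat.card_prod]
  ring

/-- Two translates meet only in the fixed vectors of a commutator. -/
theorem fix_pair (g y : G) :
    Nat.card (fixV V g) ^ 2 ≤ Nat.card V * Nat.card (fixV V (g * (y * g⁻¹ * y⁻¹))) := by
  let f : fixV V g × fixV V g →+ V :=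
    { toFun := fun p => (p.1 : V) + y • (p.2 : V)
      map_zero' := by simp
      map_add' := fun p q => by
        simp only [Prod.fst_add, Prod.snd_add, AddSubgroup.coe_add, smul_add]
        abel }
  have hker : Nat.card f.ker ≤ Nat.card (fixV V (g * (y * g⁻¹ * y⁻¹))) := by
    have hmem : ∀ p : f.ker, ((p : fixV V g × fixV V g).1 : V) ∈ fixV V (g * (y * g⁻¹ * y⁻¹)) := by
      rintro ⟨⟨⟨a, ha⟩, ⟨b, hb⟩⟩, hp⟩
      change a + y • b = 0 at hp
      show (g * (y * g⁻¹ * y⁻¹)) • a = a
      have hb' : g⁻¹ • b = b := by rw [inv_smul_eq_iff, show g • b = b from hb]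
      rw [mul_smul, mul_smul, mul_smul, eq_neg_of_add_eq_zero_left hp, smul_neg, inv_smul_smul,
        smul_neg, hb', smul_neg, ← eq_neg_of_add_eq_zero_left hp, show g • a = a from ha]
    refine Nat.card_le_card_of_injective (fun p => ⟨_, hmem p⟩) ?_
    rintro ⟨⟨a, b⟩, hp⟩ ⟨⟨c, d⟩, hq⟩ h
    obtain rfl : a = c := Subtype.ext (congrArg Subtype.val h :)
    change (a : V) + y • (b : V) = 0 at hp
    change (a : V) + y • (d : V) = 0 at hq
    obtain rfl : b = d := Subtype.ext (MulAction.injective y (add_left_cancel (hp.trans hq.symm)))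
    rfl
  calc Nat.card (fixV V g) ^ 2 = Nat.card (fixV V g × fixV V g) := by rw [Nat.card_prod, pow_two]
    _ = f.ker.index * Nat.card f.ker := (AddSubgroup.index_mul_card f.ker).symm
    _ ≤ _ := Nat.mul_le_mul (by
      rw [AddSubgroup.index_ker]
      exact Finite.card_subtype_le _) hker

end Cfsg.Agent.H52.RegPair
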