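import Cfsg.Agent.H52.RegPair.Primitive

/-! Completely reducible modules of groups of odd order have regular pairs of vectors. -/

set_option autoImplicit false
set_option linter.unusedSectionVars false
set_option linter.style.haveILetI false

namespace Cfsg.Agent.H52.RegPair

universe u

theorem exists_regVec (hsol : OddSolvable.{u}) (G : Type u) [Group G] [Finite G] (V : Type u)
    [AddCommGroup V] [Finite V] [DistribMulAction G V] (hodd : Odd (Nat.card G)) (hV : CR G V) :
    ∃ v w : V, RegVec G V v w := by
  induction hn : Nat.card G + Nat.card V using Nat.strong_induction_on generalizing G V with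
  | _ n ih =>
    have hbelow : BelowPair G V := fun H _ _ X _ _ _ hlt hH hX => ih _ (hn ▸ hlt) H X hH hX rfl
    let f := DistribMulAction.toAddMonoidEnd G V
    by_cases hker : f.ker = ⊥
    · haveI : FaithfulSMul G V := ⟨fun {g h} hgh =>
        (f.ker_eq_bot_iff.1 hker) (AddMonoidHom.ext hgh)⟩
      cases subsingleton_or_nontrivial V with
      | inl hs => exact ⟨0, 0, fun g _ _ x => Subsingleton.elim _ _⟩
      | inr hnt =>
        by_cases hirr : Irr G V
        · by_cases him : Imprim G V
          · exact regVec_of_imprim hsol hodd hirr hbelow him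
          · exact regVec_of_primitive hsol hodd hirr him hbelow
        · simp only [Irr, not_forall] at hirr
          obtain ⟨U, hU, hne⟩ := hirr
          rw [not_or] at hne
          exact regVec_of_reducible hodd hV hbelow hU hne.1 hne.2
    · let φ : (G ⧸ f.ker) →* AddMonoid.End V := QuotientGroup.lift f.ker f le_rfl
      letI : DistribMulAction (G ⧸ f.ker) V :=
        { smul := fun a v => φ a v
          one_smul := fun v => DFunLike.congr_fun (map_one φ) v
          mul_smul := fun a b v => DFunLike.congr_fun (map_mul φ a b) v
          smul_zero := fun a => map_zero (φ a)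
          smul_add := fun a x y => map_add (φ a) x y }
      have hmk : ∀ (g : G) (v : V), (QuotientGroup.mk g : G ⧸ f.ker) • v = g • v := fun g v => rfl
      have hlt : Nat.card (G ⧸ f.ker) + Nat.card V < Nat.card G + Nat.card V := by
        refine Nat.add_lt_add_right ?_ _
        rw [Subgroup.card_eq_card_quotient_mul_card_subgroup f.ker]
        exact lt_mul_of_one_lt_right Nat.card_pos (f.ker.one_lt_card_iff_ne_bot.2 hker)
      obtain ⟨v, w, hvw⟩ := hbelow (G ⧸ f.ker) V hlt
        (hodd.of_dvd_nat (Subgroup.card_quotient_dvd_card f.ker)) (fun U hU => by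
          obtain ⟨W, hW, h1, h2⟩ := hV U (fun g x hx => hmk g x ▸ hU _ x hx)
          refine ⟨W, fun a x hx => ?_, h1, h2⟩
          induction a using QuotientGroup.induction_on with
          | _ g => rw [hmk]; exact hW g x hx)
      exact ⟨v, w, fun g h1 h2 x => by
        rw [← hmk] at h1 h2 ⊢
        exact hvw _ h1 h2 x⟩

end Cfsg.Agent.H52.RegPair
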