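import Cfsg.Agent.H52.RegPair.Semilinear
import Cfsg.Agent.H52.RegPair.Fixed
import Cfsg.Agent.H52.RegPair.Pairing
import Cfsg.Agent.H52.RegPair.Arith
import Cfsg.Agent.H52.RegPair.Count

/-! A primitive linear group of odd order has a regular pair of vectors. -/

set_option autoImplicit false
set_option linter.unusedSectionVars false
set_option linter.style.haveILetI false

namespace Cfsg.Agent.H52.RegPair

universe u

variable {G : Type u} [Group G] [Finite G] {V : Type u} [AddCommGroup V] [DistribMulAction G V]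
  [Finite V] [Nontrivial V] [FaithfulSMul G V]

theorem comm_right {x y z : G} (h : y * (x * z * x⁻¹ * z⁻¹) = x * z * x⁻¹ * z⁻¹ * y) :
    x * (y * z) * x⁻¹ * (y * z)⁻¹ = (x * y * x⁻¹ * y⁻¹) * (x * z * x⁻¹ * z⁻¹) := by
  conv_rhs => rw [show x * z * x⁻¹ * z⁻¹ = y * (x * z * x⁻¹ * z⁻¹) * y⁻¹ by
    rw [h, mul_inv_cancel_right]]
  group

theorem comm_left {x x' y : G} (h : x * (x' * y * x'⁻¹ * y⁻¹) = x' * y * x'⁻¹ * y⁻¹ * x) :
    x * x' * y * (x * x')⁻¹ * y⁻¹ = (x' * y * x'⁻¹ * y⁻¹) * (x * y * x⁻¹ * y⁻¹) := by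
  rw [← mul_assoc (x' * y * x'⁻¹ * y⁻¹), ← mul_assoc (x' * y * x'⁻¹ * y⁻¹),
    ← mul_assoc (x' * y * x'⁻¹ * y⁻¹), ← h]
  group

theorem eq_of_smul_eq {K : Type u} [Field K] [Module K V] {k k' : K} (h : ∀ v : V, k • v = k' • v) :
    k = k' := by
  obtain ⟨v, hv⟩ := exists_ne (0 : V)
  exact sub_eq_zero.1 ((smul_eq_zero.1 (show (k - k') • v = 0 by
    rw [sub_smul, h, sub_self])).resolve_right hv)

/-- The field automorphisms occurring have order dividing the degree. -/
theorem index_centralizer_dvd {U : Subgroup G} {K : Type u} [Field K] [Finite K] [Module K V]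
    (S : SemiData G V U K) :
    ∃ p f : ℕ, p.Prime ∧ Nat.card K = p ^ f ∧ (Subgroup.centralizer (U : Set G)).index ∣ f := by
  obtain ⟨p, hp⟩ := CharP.exists K
  haveI hpp : Fact p.Prime := ⟨CharP.char_is_prime K p⟩
  letI := ZMod.algebra K p
  have hmul : ∀ g h k, S.σ (g * h) k = S.σ g (S.σ h k) := fun g h k => eq_of_smul_eq (V := V) fun v => by
    obtain ⟨w, rfl⟩ : ∃ w, (g * h) • w = v := ⟨_, smul_inv_smul (g * h) v⟩
    rw [← S.smul_σ, mul_smul, S.smul_σ, S.smul_σ, ← mul_smul]
  have hone : ∀ k, S.σ 1 k = k := fun k => S.σ_centralizer 1 (one_mem _) k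
  let ψ : G →* (K ≃ₐ[ZMod p] K) :=
    { toFun := fun g => AlgEquiv.ofRingEquiv (f :=
        { toFun := S.σ g
          invFun := S.σ g⁻¹
          left_inv := fun k => by rw [← hmul, inv_mul_cancel, hone]
          right_inv := fun k => by rw [← hmul, mul_inv_cancel, hone]
          map_mul' := map_mul (S.σ g)
          map_add' := map_add (S.σ g) })
        (fun r => RingHom.congr_fun (RingHom.ext_zmod ((S.σ g).comp (algebraMap (ZMod p) K))
          (algebraMap (ZMod p) K)) r)
      map_one' := AlgEquiv.ext fun k => hone k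
      map_mul' := fun g h => AlgEquiv.ext fun k => hmul g h k }
  have hψ : ∀ g k, ψ g k = S.σ g k := fun g k => rfl
  have hker : ψ.ker = Subgroup.centralizer (U : Set G) := by
    ext g
    refine ⟨fun hg => Subgroup.mem_centralizer_iff.2 fun x hx => ?_,
      fun hg => AlgEquiv.ext fun k => S.σ_centralizer g hg k⟩
    refine eq_of_smul_eq_smul (α := V) fun v => ?_
    rw [mul_smul, mul_smul, ← S.smul_ι ⟨x, hx⟩, ← S.smul_ι ⟨x, hx⟩, S.smul_σ, ← hψ,
      MonoidHom.mem_ker.1 hg]
    rfl
  refine ⟨p, Module.finrank (ZMod p) K, hpp.out, ?_, ?_⟩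
  · rw [Module.natCard_eq_pow_finrank (K := ZMod p) (V := K), Nat.card_zmod]
  · rw [← hker, Subgroup.index_ker, ← IsGalois.card_aut_eq_finrank (ZMod p) K]
    exact Subgroup.card_subgroup_dvd_card _

theorem index_facts {p f d q : ℕ} (hp : p.Prime) (hq : q = p ^ f) (hd : d ∣ f) (hodd : Odd d)
    (hd1 : 1 < d) (hf : 0 < f) : 2 * d ≤ q ∧ (q = 8 ∨ 27 ≤ q) := by
  have hd3 : 3 ≤ d := by obtain ⟨k, rfl⟩ := hodd; omega
  have hdf : d ≤ f := Nat.le_of_dvd hf hd
  have h2f : ∀ n, 1 ≤ n → 2 * n ≤ 2 ^ n := fun n hn => by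
    induction n, hn using Nat.le_induction with
    | base => norm_num
    | succ n hn ih => rw [pow_succ]; omega
  have hpf : 2 ^ f ≤ q := hq ▸ Nat.pow_le_pow_left hp.two_le f
  refine ⟨le_trans (by omega) ((h2f f (by omega)).trans hpf), ?_⟩
  rcases eq_or_ne p 2 with rfl | hp2
  · rcases Nat.lt_or_ge f 5 with hlt | hge
    · have hf34 : f = 3 ∨ f = 4 := by omega
      rcases hf34 with rfl | rfl
      · left; rw [hq]; norm_num
      · exfalso
        have : d = 4 ∨ d = 3 := by omega
        rcases this with rfl | rfl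
        · obtain ⟨k, hk⟩ := hodd; omega
        · norm_num at hd
    · right
      exact le_trans (le_trans (by norm_num) (Nat.pow_le_pow_right (by norm_num) hge)) hpf
  · right
    rw [hq]
    have hp3 : 3 ≤ p := by have := hp.two_le; omega
    calc 27 = 3 ^ 3 := by norm_num
      _ ≤ 3 ^ f := Nat.pow_le_pow_right (by norm_num) (by omega)
      _ ≤ p ^ f := Nat.pow_le_pow_left hp3 f

set_option maxHeartbeats 1600000 in
theorem regVec_of_primitive (hsol : OddSolvable.{u}) (hodd : Odd (Nat.card G)) (hirr : Irr G V)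
    (hnim : ¬ Imprim G V) (ih : BelowPair G V) : ∃ v w : V, RegVec G V v w := by
  classical
  haveI := Fintype.ofFinite G
  by_cases hnG : Subsingleton G
  · exact ⟨0, 0, fun g _ _ x => by rw [Subsingleton.elim g 1, one_smul]⟩
  obtain ⟨U, hUmem, hUmax⟩ := (Set.toFinite
    {U : Subgroup G | U.Normal ∧ ∀ a ∈ U, ∀ b ∈ U, a * b = b * a}).exists_maximal
    ⟨⊥, inferInstance, fun a ha b hb => by rw [Subgroup.mem_bot] at ha hb; rw [ha, hb]⟩
  obtain ⟨hUn, hUab⟩ := hUmem
  haveI := hUn
  obtain ⟨K, fK, mK, hKfin, ⟨S⟩⟩ := exists_semiData hirr hnim U hUab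
  letI := fK
  letI := mK
  haveI := hKfin
  haveI := Fintype.ofFinite K
  haveI : Module.Finite K V := Module.Finite.of_finite
  have hV : Nat.card V = Nat.card K ^ Module.finrank K V := Module.natCard_eq_pow_finrank
  have hι1 : ∀ x : U, S.ι x ≠ 0 := fun x h => by
    obtain ⟨v, hv⟩ := exists_ne (0 : V)
    have := S.smul_ι x v
    rw [h, zero_smul] at this
    exact hv (smul_eq_zero_iff_eq _ |>.1 this.symm)
  let ι : U →* Kˣ :=
    { toFun := fun x => Units.mk0 (S.ι x) (hι1 x)
      map_one' := Units.ext (eq_of_smul_eq (V := V) fun v => by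
        show S.ι 1 • v = (1 : K) • v
        rw [S.smul_ι, one_smul]; exact one_smul G v)
      map_mul' := fun x y => Units.ext (eq_of_smul_eq (V := V) fun v => by
        show S.ι (x * y) • v = (S.ι x * S.ι y) • v
        rw [mul_smul, S.smul_ι, S.smul_ι, S.smul_ι]; exact mul_smul (x : G) (y : G) v) }
  have hιv : ∀ (x : U) (v : V), (ι x : K) • v = (x : G) • v := S.smul_ι
  have hιinj : Function.Injective ι := fun x y h => Subtype.ext
    (eq_of_smul_eq_smul (α := V) fun v => by rw [← hιv, ← hιv, h])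
  set q := Nat.card K with hq
  set m := Module.finrank K V with hm
  have hm0 : 0 < m := Module.finrank_pos
  have hq1 : 1 < q := Finite.one_lt_card
  by_cases hm1 : m = 1
  · obtain ⟨v, hv⟩ := exists_ne (0 : V)
    obtain ⟨k₀, hk₀⟩ := IsCyclic.exists_generator (α := Kˣ)
    refine ⟨v, (k₀ : K) • v, fun g h1 h2 x => ?_⟩
    rw [S.smul_σ, h1] at h2
    have hσ₀ : Units.map (S.σ g).toMonoidHom k₀ = k₀ := Units.ext (by
      show S.σ g k₀ = k₀
      exact sub_eq_zero.1 ((smul_eq_zero.1 (show (S.σ g k₀ - k₀) • v = 0 by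
        rw [sub_smul, h2, sub_self])).resolve_right hv))
    have hσ : ∀ k, S.σ g k = k := by
      intro k
      by_cases hk : k = 0
      · rw [hk, map_zero]
      obtain ⟨i, hi⟩ := hk₀ (Units.mk0 k hk)
      have := congrArg Units.val (show Units.map (S.σ g).toMonoidHom (k₀ ^ i) = k₀ ^ i by
        rw [map_zpow, hσ₀])
      change S.σ g ((k₀ ^ i : Kˣ) : K) = _ at this
      have hi' : ((k₀ ^ i : Kˣ) : K) = k := congrArg Units.val hi
      rwa [hi'] at this
    obtain ⟨c, rfl⟩ := (finrank_eq_one_iff_of_nonzero' v hv).1 hm1 x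
    rw [S.smul_σ, hσ, h1]
  have hm2 : 2 ≤ m := by omega
  -- the centraliser of the scalars and the next layer
  let B : Subgroup G := Subgroup.centralizer (U : Set G)
  have hB : ∀ {g : G}, g ∈ B ↔ ∀ x ∈ U, x * g = g * x := fun {g} => Subgroup.mem_centralizer_iff
  haveI hBn : B.Normal := ⟨fun g hg k => hB.2 fun x hx => by
    have h := hB.1 hg _ (hUn.conj_mem x hx k⁻¹)
    rw [inv_inv] at h
    calc x * (k * g * k⁻¹) = k * ((k⁻¹ * x * k) * g) * k⁻¹ := by group
      _ = k * (g * (k⁻¹ * x * k)) * k⁻¹ := by rw [h]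
      _ = k * g * k⁻¹ * x := by group⟩
  have hBlin : ∀ g ∈ B, ∀ (k : K) (v : V), g • (k • v) = k • (g • v) := fun g hg k v => by
    rw [S.smul_σ, S.σ_centralizer g hg]
  have hUB : U ≤ B := fun g hg => hB.2 fun x hx => hUab x hx g hg
  obtain ⟨E, hEmem, hEmax⟩ := (Set.toFinite {E : Subgroup G | E.Normal ∧ U ≤ E ∧ E ≤ B ∧
    ∀ x ∈ E, ∀ y ∈ E, x * y * x⁻¹ * y⁻¹ ∈ U}).exists_maximal
    ⟨U, hUn, le_rfl, hUB, fun x hx y hy => U.mul_mem (U.mul_mem (U.mul_mem hx hy) (U.inv_mem hx))
      (U.inv_mem hy)⟩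
  obtain ⟨hEn, hUE, hEB, hEc⟩ := hEmem
  haveI := hEn
  have hcomm : ∀ {x y : G} (z : G), z ∈ B → x ∈ E → y ∈ E →
      z * (x * y * x⁻¹ * y⁻¹) = x * y * x⁻¹ * y⁻¹ * z := fun z hz hx hy =>
    ((hB.1 hz) _ (hEc _ hx _ hy)).symm
  have hcomm' : ∀ {x y : G}, x * y * x⁻¹ * y⁻¹ = 1 → x * y = y * x := fun {x y} h => by
    calc x * y = x * y * x⁻¹ * y⁻¹ * (y * x) := by group
      _ = y * x := by rw [h, one_mul]
  have hZE : ∀ x ∈ E, (∀ y ∈ E, x * y = y * x) → x ∈ U := by
    let Z : Subgroup G := E ⊓ Subgroup.centralizer (E : Set G)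
    have hZn : Z.Normal := inferInstance
    have hZab : ∀ a ∈ Z, ∀ b ∈ Z, a * b = b * a := fun a ha b hb =>
      Subgroup.mem_centralizer_iff.1 hb.2 a ha.1
    have hUZ : U ≤ Z := fun a ha => ⟨hUE ha, Subgroup.mem_centralizer_iff.2 fun y hy =>
      (hB.1 (hEB hy) a ha).symm⟩
    exact fun x hx h => hUmax ⟨hZn, hZab⟩ hUZ
      ⟨hx, Subgroup.mem_centralizer_iff.2 fun y hy => (h y hy).symm⟩
  have hCBE : ∀ g ∈ B, (∀ y ∈ E, g * y = y * g) → g ∈ U := by
    intro g₀ hg₀ hg₀E
    by_contra hg₀U
    let C : Subgroup G := B ⊓ Subgroup.centralizer (E : Set G)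
    haveI hCn : C.Normal := inferInstance
    let D : ℕ → Subgroup G := fun n => (derivedSeries C n).map C.subtype
    have hDn : ∀ n, (D n).Normal := fun n => inferInstance
    haveI : Group.IsSolvable C := hsol C (hodd.of_dvd_nat (Subgroup.card_subgroup_dvd_card _))
    obtain ⟨N, hN⟩ := Group.IsSolvable.solvable (G := C)
    have hex : ∃ n, D n ≤ U := ⟨N, by simp only [D]; rw [hN, Subgroup.map_bot]; exact bot_le⟩
    have hn0 : Nat.find hex ≠ 0 := by
      intro h0
      have := Nat.find_spec hex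
      rw [h0] at this
      exact hg₀U (this ⟨⟨g₀, hg₀, Subgroup.mem_centralizer_iff.2 fun y hy => (hg₀E y hy).symm⟩,
        Subgroup.mem_top _, rfl⟩)
    obtain ⟨n, hn⟩ := Nat.exists_eq_succ_of_ne_zero hn0
    have hDU : ¬ D n ≤ U := Nat.find_min hex (by omega)
    have hDC : D n ≤ C := Subgroup.map_subtype_le _
    have hD1 : ∀ a ∈ D n, ∀ b ∈ D n, a * b * a⁻¹ * b⁻¹ ∈ U := by
      rintro _ ⟨a, ha, rfl⟩ _ ⟨b, hb, rfl⟩
      refine (by have := Nat.find_spec hex; rwa [hn] at this : D (n + 1) ≤ U) ⟨a * b * a⁻¹ * b⁻¹, ?_, by simp⟩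
      rw [derivedSeries_succ]
      exact Subgroup.commutator_mem_commutator ha hb
    haveI := hDn n
    have hE' : ∀ x ∈ E ⊔ D n, ∀ y ∈ E ⊔ D n, x * y * x⁻¹ * y⁻¹ ∈ U := by
      intro x hx y hy
      obtain ⟨a, ha, d, hd, rfl⟩ := Subgroup.mem_sup_of_normal_left.1 hx
      obtain ⟨a', ha', d', hd', rfl⟩ := Subgroup.mem_sup_of_normal_left.1 hy
      have cda : d * a' = a' * d := (Subgroup.mem_centralizer_iff.1 (hDC hd).2 a' ha').symm
      have cda' : d' * a⁻¹ = a⁻¹ * d' := (Subgroup.mem_centralizer_iff.1 (hDC hd').2 _ (E.inv_mem ha)).symm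
      have cdd : (d * d' * d⁻¹) * a⁻¹ = a⁻¹ * (d * d' * d⁻¹) :=
        (Subgroup.mem_centralizer_iff.1
          (hDC ((D n).mul_mem ((D n).mul_mem hd hd') ((D n).inv_mem hd))).2 _ (E.inv_mem ha)).symm
      have cd2 : (d * d' * d⁻¹ * d'⁻¹) * a'⁻¹ = a'⁻¹ * (d * d' * d⁻¹ * d'⁻¹) :=
        (Subgroup.mem_centralizer_iff.1 (hDC ((D n).mul_mem ((D n).mul_mem ((D n).mul_mem hd hd')
          ((D n).inv_mem hd)) ((D n).inv_mem hd'))).2 _ (E.inv_mem ha')).symm
      have : a * d * (a' * d') * (a * d)⁻¹ * (a' * d')⁻¹ =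
          (a * a' * a⁻¹ * a'⁻¹) * (d * d' * d⁻¹ * d'⁻¹) := by
        calc a * d * (a' * d') * (a * d)⁻¹ * (a' * d')⁻¹
            = a * (d * a') * d' * d⁻¹ * a⁻¹ * d'⁻¹ * a'⁻¹ := by group
          _ = a * a' * ((d * d' * d⁻¹) * a⁻¹) * d'⁻¹ * a'⁻¹ := by rw [cda]; group
          _ = a * a' * a⁻¹ * ((d * d' * d⁻¹ * d'⁻¹) * a'⁻¹) := by rw [cdd]; group
          _ = _ := by rw [cd2]; group
      rw [this]
      exact U.mul_mem (hEc a ha a' ha') (hD1 d hd d' hd')
    have hle : E ⊔ D n ≤ E := hEmax ⟨inferInstance, le_sup_of_le_left hUE,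
      sup_le hEB (hDC.trans inf_le_left), hE'⟩ le_sup_left
    refine hDU fun x hx => hZE x (hle (le_sup_right (a := E) hx)) fun y hy => ?_
    exact (Subgroup.mem_centralizer_iff.1 (hDC hx).2 y hy).symm
  -- the symplectic quotient
  let UE : Subgroup E := U.subgroupOf E
  haveI : UE.Normal := inferInstance
  let W := E ⧸ UE
  have hWmk : ∀ x : E, (QuotientGroup.mk x : W) = 1 ↔ (x : G) ∈ U := fun x =>
    (QuotientGroup.eq_one_iff x).trans Subgroup.mem_subgroupOf
  letI : CommGroup W :=
    { (inferInstance : Group W) with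
      mul_comm := fun a b => by
        induction a using QuotientGroup.induction_on with
        | _ x =>
          induction b using QuotientGroup.induction_on with
          | _ y =>
            refine (QuotientGroup.eq).2 (Subgroup.mem_subgroupOf.2 ?_)
            have := hEc _ (E.inv_mem y.2) _ (E.inv_mem x.2)
            simpa [mul_assoc] using this }
  let c : E → E → U := fun x y => ⟨(x : G) * y * (x : G)⁻¹ * (y : G)⁻¹, hEc _ x.2 _ y.2⟩
  let χ : E →* E →* Kˣ := MonoidHom.mk'
    (fun x => MonoidHom.mk' (fun y => ι (c x y)) (fun y z => by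
      rw [← map_mul]
      exact congrArg ι (Subtype.ext (comm_right (hcomm (y : G) (hEB y.2) x.2 z.2)))))
    (fun x x' => MonoidHom.ext fun y => by
      show ι (c (x * x') y) = ι (c x y) * ι (c x' y)
      rw [mul_comm, ← map_mul]
      exact congrArg ι (Subtype.ext (comm_left (hcomm (x : G) (hEB x.2) x'.2 y.2))))
  have hχv : ∀ x y : E, χ x y = ι (c x y) := fun _ _ => rfl
  let b₀ : W →* E →* Kˣ := QuotientGroup.lift UE χ (fun x hx => MonoidHom.mem_ker.2 (MonoidHom.ext fun y => by
    rw [hχv]
    refine (congrArg ι (Subtype.ext ?_)).trans (map_one ι)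
    show (x : G) * y * (x : G)⁻¹ * (y : G)⁻¹ = 1
    rw [hB.1 (hEB y.2) _ (Subgroup.mem_subgroupOf.1 hx)]
    group))
  let b₁ : W →* W →* Kˣ := QuotientGroup.lift UE b₀.flip (fun y hy => MonoidHom.mem_ker.2 (MonoidHom.ext fun a => by
    induction a using QuotientGroup.induction_on with
    | _ x =>
      show χ x y = 1
      rw [hχv]
      refine (congrArg ι (Subtype.ext ?_)).trans (map_one ι)
      show (x : G) * y * (x : G)⁻¹ * (y : G)⁻¹ = 1
      rw [← hB.1 (hEB x.2) _ (Subgroup.mem_subgroupOf.1 hy)]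
      group))
  let b : W →* W →* Kˣ := b₁.flip
  have hb : ∀ x y : E, b (QuotientGroup.mk x) (QuotientGroup.mk y) = ι (c x y) := fun _ _ => rfl
  have hc1 : ∀ x y : E, b (QuotientGroup.mk x) (QuotientGroup.mk y) = 1 → (x : G) * y = y * x := by
    intro x y h
    rw [hb, ← map_one ι] at h
    exact hcomm' (congrArg Subtype.val (hιinj h))
  have halt : AltPair b := by
    refine ⟨fun a => ?_, fun a ha => ?_⟩
    · induction a using QuotientGroup.induction_on with
      | _ x =>
        rw [hb]
        refine (congrArg ι (Subtype.ext ?_)).trans (map_one ι)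
        show (x : G) * x * (x : G)⁻¹ * (x : G)⁻¹ = 1
        group
    · induction a using QuotientGroup.induction_on with
      | _ x =>
        exact (hWmk x).2 (hZE x x.2 fun y hy => hc1 x ⟨y, hy⟩ (ha _))
  -- the action on it
  have hstab : ∀ g : G, UE.map ((MulAut.conjNormal g : E ≃* E) : E →* E) = UE := by
    intro g
    ext z
    constructor
    · rintro ⟨w, hw, rfl⟩
      refine Subgroup.mem_subgroupOf.2 ?_
      show ((MulAut.conjNormal g w : E) : G) ∈ U
      rw [MulAut.conjNormal_apply]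
      exact hUn.conj_mem _ (Subgroup.mem_subgroupOf.1 hw) g
    · intro hz
      refine ⟨MulAut.conjNormal g⁻¹ z, Subgroup.mem_subgroupOf.2 ?_, Subtype.ext ?_⟩
      · rw [MulAut.conjNormal_apply]
        exact hUn.conj_mem _ (Subgroup.mem_subgroupOf.1 hz) g⁻¹
      · show ((MulAut.conjNormal g (MulAut.conjNormal g⁻¹ z) : E) : G) = z
        rw [MulAut.conjNormal_apply, MulAut.conjNormal_apply]
        group
  let act : G →* MulAut W := MonoidHom.mk'
    (fun g => QuotientGroup.congr UE UE (MulAut.conjNormal g) (hstab g))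
    (fun g h => MulEquiv.ext fun a => by
      induction a using QuotientGroup.induction_on with
      | _ x =>
        show (QuotientGroup.mk (MulAut.conjNormal (g * h) x) : W) =
          QuotientGroup.mk (MulAut.conjNormal g (MulAut.conjNormal h x))
        rw [map_mul]
        rfl)
  have hact : ∀ g (x : E), act g (QuotientGroup.mk x) = QuotientGroup.mk (MulAut.conjNormal g x) :=
    fun _ _ => rfl
  have hequiv : ∀ g (a a' : W), ((b (act g a) (act g a') : Kˣ) : K) = S.σ g (b a a' : Kˣ) := by
    intro g a a'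
    induction a using QuotientGroup.induction_on with
    | _ x =>
      induction a' using QuotientGroup.induction_on with
      | _ y =>
        rw [hact, hact, hb, hb]
        refine eq_of_smul_eq (V := V) fun v => ?_
        obtain ⟨w, rfl⟩ : ∃ w, g • w = v := ⟨_, smul_inv_smul g v⟩
        rw [← S.smul_σ, hιv, hιv]
        simp only [c, MulAut.conjNormal_apply, ← mul_smul]
        congr 1
        group
  let A : Subgroup (MulAut W) := act.range
  let H : Subgroup (MulAut W) := B.map act
  haveI : Finite (MulAut W) :=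
    Finite.of_injective (fun f : MulAut W => (f : W → W)) DFunLike.coe_injective
  have hperp : ∀ T : Subgroup W, (∀ a ∈ A, ∀ x ∈ T, a x ∈ T) →
      (∀ a ∈ A, ∀ x ∈ perp b T, a x ∈ perp b T) ∧ T ⊓ perp b T = ⊥ := by
    intro T hT
    have hpinv : ∀ a ∈ A, ∀ x ∈ perp b T, a x ∈ perp b T := by
      rintro _ ⟨g, rfl⟩ x hx s hs
      have hs' : act g⁻¹ s ∈ T := hT _ ⟨g⁻¹, rfl⟩ s hs
      have := hequiv g x (act g⁻¹ s)
      have hgs : act g (act g⁻¹ s) = s := by
        rw [← MulAut.mul_apply, ← map_mul, mul_inv_cancel, map_one]; rfl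
      rw [hgs, hx _ hs', Units.val_one, map_one] at this
      exact Units.ext this
    refine ⟨hpinv, ?_⟩
    let T₀ : Subgroup G := ((T ⊓ perp b T).comap (QuotientGroup.mk' UE)).map E.subtype
    have hT₀E : T₀ ≤ E := Subgroup.map_subtype_le _
    have hT₀n : T₀.Normal := ⟨by
      rintro _ ⟨x, hx, rfl⟩ g
      refine ⟨MulAut.conjNormal g x, ?_, MulAut.conjNormal_apply g x⟩
      show (QuotientGroup.mk (MulAut.conjNormal g x) : W) ∈ T ⊓ perp b T
      rw [← hact]
      exact ⟨hT _ ⟨g, rfl⟩ _ hx.1, hpinv _ ⟨g, rfl⟩ _ hx.2⟩⟩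
    have hT₀ab : ∀ x ∈ T₀, ∀ y ∈ T₀, x * y = y * x := by
      rintro _ ⟨x, hx, rfl⟩ _ ⟨y, hy, rfl⟩
      exact hc1 x y (hx.2 _ hy.1)
    have hUT₀ : U ≤ T₀ := fun x hx => ⟨⟨x, hUE hx⟩, by
      show (QuotientGroup.mk (⟨x, hUE hx⟩ : E) : W) ∈ T ⊓ perp b T
      rw [(hWmk _).2 hx]
      exact one_mem _, rfl⟩
    have hle : T₀ ≤ U := hUmax ⟨hT₀n, hT₀ab⟩ hUT₀
    refine (Subgroup.eq_bot_iff_forall _).2 fun a ha => ?_
    induction a using QuotientGroup.induction_on with
    | _ x => exact (hWmk x).2 (hle ⟨x, ha, rfl⟩)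
  -- orders
  have hEcard : Nat.card E = Nat.card U * Nat.card W := by
    rw [Subgroup.card_eq_card_quotient_mul_card_subgroup UE, mul_comm,
      Nat.card_congr (Subgroup.subgroupOfEquivOfLe hUE).toEquiv]
  have hUq : Nat.card U < q := by
    rw [hq, Nat.card_eq_fintype_card (α := K)]
    have : Nat.card U ≤ Nat.card Kˣ := Nat.card_le_card_of_injective ι hιinj
    rw [Nat.card_units, Nat.card_eq_fintype_card (α := K)] at this
    have := Fintype.card_pos (α := K)
    omega
  have hkerB : ∀ g ∈ B, act g = 1 → g ∈ E := by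
    intro g hg hg1
    have hgy : ∀ y : E, g * (y : G) * g⁻¹ * (y : G)⁻¹ ∈ U := by
      intro y
      have h := DFunLike.congr_fun hg1 (QuotientGroup.mk y : W)
      rw [hact, MulAut.one_apply, QuotientGroup.eq, Subgroup.mem_subgroupOf] at h
      have := hUn.conj_mem _ (U.inv_mem h) (y : G)
      simpa [MulAut.conjNormal_apply, mul_assoc] using this
    let lam : E →* Kˣ := MonoidHom.mk' (fun y => ι ⟨_, hgy y⟩) (fun y z => by
      rw [← map_mul]
      exact congrArg ι (Subtype.ext (comm_right ((hB.1 (hEB y.2)) _ (hgy z)).symm)))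
    let lam' : W →* Kˣ := QuotientGroup.lift UE lam (fun y hy => MonoidHom.mem_ker.2
      ((congrArg ι (Subtype.ext (by
        show g * (y : G) * g⁻¹ * (y : G)⁻¹ = 1
        rw [← hB.1 hg _ (Subgroup.mem_subgroupOf.1 hy)]
        group))).trans (map_one ι)))
    obtain ⟨a, ha⟩ := halt.surjective lam'
    induction a using QuotientGroup.induction_on with
    | _ e =>
      have hin : (e : G)⁻¹ * g ∈ U := hCBE _ (B.mul_mem (B.inv_mem (hEB e.2)) hg) fun y hy => by
        have h1 := DFunLike.congr_fun ha (QuotientGroup.mk (⟨y, hy⟩ : E))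
        have h2 : (e : G) * y * (e : G)⁻¹ * y⁻¹ = g * y * g⁻¹ * y⁻¹ := congrArg Subtype.val (hιinj h1)
        calc (e : G)⁻¹ * g * y = (e : G)⁻¹ * (g * y * g⁻¹ * y⁻¹) * y * g := by group
          _ = (e : G)⁻¹ * ((e : G) * y * (e : G)⁻¹ * y⁻¹) * y * g := by rw [h2]
          _ = _ := by group
      have := E.mul_mem e.2 (hUE hin)
      rwa [mul_inv_cancel_left] at this
  have hBcard : Nat.card B = Nat.card H * Nat.card E := by
    have h := Subgroup.card_mul_index (act.comp B.subtype).ker
    rw [Subgroup.index_ker, MonoidHom.range_comp, Subgroup.range_subtype] at h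
    rw [← h, mul_comm]
    congr 1
    rw [← Nat.card_congr (Subgroup.subgroupOfEquivOfLe hEB).toEquiv]
    congr 2
    ext g
    rw [MonoidHom.mem_ker, Subgroup.mem_subgroupOf]
    refine ⟨fun h => hkerB g g.2 h, fun h => MulEquiv.ext fun a => ?_⟩
    induction a using QuotientGroup.induction_on with
    | _ x =>
      show act (g : G) (QuotientGroup.mk x) = QuotientGroup.mk x
      rw [hact, QuotientGroup.eq, Subgroup.mem_subgroupOf]
      simp only [Subgroup.coe_mul, Subgroup.coe_inv, MulAut.conjNormal_apply]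
      have := hEc _ h _ (E.inv_mem x.2)
      simpa [mul_assoc] using this
  obtain ⟨p, f, hp, hpf, hdf⟩ := index_centralizer_dvd S
  have hdodd : Odd B.index := hodd.of_dvd_nat (Subgroup.index_dvd_card _)
  have hf0 : 0 < f := Nat.pos_of_ne_zero fun h => by
    rw [← hq, h, pow_zero] at hpf
    omega
  have hAodd : Odd (Nat.card A) := hodd.of_dvd_nat (Subgroup.card_range_dvd act)
  have hHA : H ≤ A := Subgroup.map_le_range _ _
  have hHodd : Odd (Nat.card H) := hAodd.of_dvd_nat (Subgroup.card_dvd_of_le hHA)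
  obtain ⟨e, he⟩ := halt.card_isSquare
  have hGbound : Nat.card G = B.index * Nat.card B := (Subgroup.index_mul_card B).symm
  -- fixed vectors
  have hbE : ∀ g : G, g ∈ E → g ≠ 1 → Nat.card (fixV V g) ^ 3 ≤ Nat.card V := by
    intro g hg hg1
    by_cases hgU : g ∈ U
    · refine le_trans ?_ (Nat.card_pos (α := V))
      have : fixV V g = ⊥ := by
        refine (AddSubgroup.eq_bot_iff_forall _).2 fun v hv => ?_
        by_contra hv0
        have h1 : (ι ⟨g, hgU⟩ : K) = 1 := sub_eq_zero.1 ((smul_eq_zero.1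
          (show ((ι ⟨g, hgU⟩ : K) - 1) • v = 0 by
            rw [sub_smul, hιv, one_smul, show g • v = v from hv, sub_self])).resolve_right hv0)
        exact hg1 (congrArg Subtype.val (hιinj ((Units.ext h1).trans (map_one ι).symm)))
      simp [this]
    · obtain ⟨y, hy, hne⟩ : ∃ y ∈ E, g * y ≠ y * g := by
        by_contra hno
        push Not at hno
        exact hgU (hZE g hg hno)
      let z : U := ⟨g * y * g⁻¹ * y⁻¹, hEc g hg y hy⟩
      have hz1 : (ι z : K) ≠ 1 := fun h =>
        hne (hcomm' (congrArg Subtype.val (hιinj ((Units.ext h).trans (map_one ι).symm))))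
      refine fix_cube g y (hBlin g (hEB hg)) (hBlin y (hEB hy)) hz1 ?_ (Units.ne_zero _) fun v => ?_
      · intro h
        have h2 : ι (z ^ 2) = 1 := Units.ext (by
          rw [map_pow, Units.val_pow_eq_pow_val, eq_neg_of_add_eq_zero_left h]
          simp)
        have hz2 : (z : G) ^ 2 = 1 := congrArg Subtype.val (hιinj (h2.trans (map_one ι).symm))
        obtain ⟨k, hk⟩ := exists_pow_sq hodd (z : G)
        rw [hz2, one_pow] at hk
        exact hne (hcomm' hk.symm)
      · rw [hιv, ← mul_smul, ← mul_smul, ← mul_smul]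
        congr 1
        show g * y = g * y * g⁻¹ * y⁻¹ * y * g
        group
  have hbB : ∀ g : G, g ∈ B → g ∉ E → (Nat.card (fixV V g) ^ 2) ^ 3 ≤ (Nat.card V ^ 2) ^ 2 := by
    intro g hg hgE
    obtain ⟨y, hy, hyU⟩ : ∃ y ∈ E, g * y * g⁻¹ * y⁻¹ ∉ U := by
      by_contra hno
      push Not at hno
      refine hgE (hkerB g hg (MulEquiv.ext fun a => ?_))
      induction a using QuotientGroup.induction_on with
      | _ x =>
        rw [hact, MulAut.one_apply, QuotientGroup.eq, Subgroup.mem_subgroupOf]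
        simp only [Subgroup.coe_mul, Subgroup.coe_inv, MulAut.conjNormal_apply]
        have := hUn.conj_mem _ (U.inv_mem (hno _ x.2)) ((x : G)⁻¹)
        simpa [mul_assoc] using this
    have hdE : g * (y * g⁻¹ * y⁻¹) ∈ E := by
      rw [← mul_assoc, ← mul_assoc]
      exact E.mul_mem (hEn.conj_mem y hy g) (E.inv_mem hy)
    have hd1 : g * (y * g⁻¹ * y⁻¹) ≠ 1 := fun h => hyU (by
      rw [show g * y * g⁻¹ * y⁻¹ = g * (y * g⁻¹ * y⁻¹) by group, h]
      exact U.one_mem)
    calc (Nat.card (fixV V g) ^ 2) ^ 3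
        ≤ (Nat.card V * Nat.card (fixV V (g * (y * g⁻¹ * y⁻¹)))) ^ 3 :=
          Nat.pow_le_pow_left (fix_pair g y) _
      _ ≤ Nat.card V ^ 3 * Nat.card V := by
          rw [mul_pow]; exact Nat.mul_le_mul_left _ (hbE _ hdE hd1)
      _ = (Nat.card V ^ 2) ^ 2 := by ring
  have hbA : ∀ g : G, g ∉ B → Nat.card (fixV V g) ^ 2 ≤ Nat.card V := by
    intro g hg
    obtain ⟨k, hk⟩ : ∃ k, S.σ g k ≠ k := by
      by_contra hno
      push Not at hno
      refine hg (hB.2 fun x hx => eq_of_smul_eq_smul (α := V) fun v => ?_)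
      rw [mul_smul, mul_smul, ← S.smul_ι ⟨x, hx⟩, ← S.smul_ι ⟨x, hx⟩, S.smul_σ, hno]
    exact fix_semilinear g hk fun v => S.smul_σ g k v
  -- the numbers
  set w := Nat.card W with hw
  set h := Nat.card H with hh
  set Q := Nat.card V with hQ
  have hQq : q ^ 2 ≤ Q := hV ▸ Nat.pow_le_pow_right (by omega) hm2
  have hEle : Nat.card E ≤ q * w := hEcard ▸ Nat.mul_le_mul_right _ hUq.le
  have hBle : Nat.card B ≤ q * w * h := by
    rw [hBcard, mul_comm]; exact Nat.mul_le_mul_right _ hEle
  have hineq : (16 * (q * w)) ^ 3 ≤ 27 * Q ^ 4 ∧ (h ≤ 1 ∨ 8 * (q * w * h) ^ 3 ≤ Q ^ 2) ∧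
      (1 < B.index → 4 * (B.index * (q * w * h)) ≤ Q ∨
        (h ≤ 1 ∧ 2 * (B.index * (q * w * h)) ≤ Q)) := by
    by_cases hw1 : w = 1
    · haveI : Subsingleton W := (Nat.card_eq_one_iff_unique.1 hw1).1
      haveI : Subsingleton (MulAut W) := ⟨fun a a' => MulEquiv.ext fun x => Subsingleton.elim _ _⟩
      have hh1 : h = 1 := hh ▸ Nat.card_of_subsingleton (1 : H)
      rw [hw1, hh1, mul_one]
      refine ⟨?_, Or.inl le_rfl, fun hd => Or.inr ⟨le_rfl, ?_⟩⟩
      · calc (16 * q) ^ 3 ≤ 27 * (q ^ 2) ^ 4 := by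
              have h5 : 2 ^ 5 ≤ q ^ 5 := Nat.pow_le_pow_left hq1 _
              nlinarith [Nat.mul_le_mul_left (q ^ 3) (show 4096 ≤ 27 * q ^ 5 by
                rcases Nat.lt_or_ge q 3 with hlt | hge
                · exfalso
                  have hU1 : Nat.card U = 1 := by have := Nat.card_pos (α := U); omega
                  have hE1 : Nat.card E = 1 := by rw [hEcard, hU1, hw1]
                  refine hnG ⟨fun g g' => ?_⟩
                  have hmem : ∀ g : G, g = 1 := fun g => by
                    have hgB : g ∈ B := hB.2 fun x hx => by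
                      rw [Subgroup.eq_bot_of_card_eq _ hU1, Subgroup.mem_bot] at hx
                      rw [hx, one_mul, mul_one]
                    have := hkerB g hgB (Subsingleton.elim _ _)
                    rwa [Subgroup.eq_bot_of_card_eq _ hE1, Subgroup.mem_bot] at this
                  rw [hmem g, hmem g']
                · exact le_trans (by norm_num) (Nat.mul_le_mul_left _ (Nat.pow_le_pow_left hge 5)))]
          _ ≤ 27 * Q ^ 4 := Nat.mul_le_mul_left _ (Nat.pow_le_pow_left hQq _)
      · rw [mul_one]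
        calc 2 * (B.index * q) = 2 * B.index * q := by ring
          _ ≤ q * q := Nat.mul_le_mul_right _ (index_facts hp hpf hdf hdodd hd hf0).1
          _ ≤ Q := by rw [← pow_two]; exact hQq
    have hwe : w = e * e := he
    have hwodd : Odd w := hodd.of_dvd_nat ((Subgroup.card_quotient_dvd_card UE).trans
      (Subgroup.card_subgroup_dvd_card E))
    have heodd : Odd e := (Nat.odd_mul.1 (hwe ▸ hwodd)).1
    have he3 : 3 ≤ e := by
      obtain ⟨k, hk⟩ := heodd
      rcases k with _ | k
      · exact absurd (by rw [hwe, hk]; norm_num) hw1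
      · omega
    have hem : e ≤ m := by
      refine Nat.mul_self_le_mul_self_iff.1 ?_
      rw [← hwe, hw, hm]
      haveI := Fintype.ofFinite W
      let r : W → E := fun a => a.out
      let T : W → (V →ₗ[K] V) := fun a =>
        { toFun := fun v => (r a : G) • v
          map_add' := smul_add _
          map_smul' := fun k v => hBlin _ (hEB (r a).2) k v }
      have hTind : LinearIndependent K T := by
        refine Fintype.linearIndependent_iff.2 fun g hg i => ?_
        obtain ⟨v, hv⟩ := exists_ne (0 : V)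
        let χW : W → (W →* K) := fun a => (Units.coeHom K).comp (b.flip a)
        have hχinj : Function.Injective χW := by
          intro a a' haa
          have h1 : ∀ z, b z a = b z a' := fun z => Units.ext (DFunLike.congr_fun haa z)
          refine div_eq_one.1 (halt.nondeg _ fun z => ?_)
          refine halt.eq_one_symm ?_
          rw [map_div, h1, div_self']
        have hall : ∀ z : W, ∑ a, (χW a z) • (g a • T a v) = 0 := by
          intro z
          induction z using QuotientGroup.induction_on with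
          | _ y =>
            have h0 := congrArg (fun f : V →ₗ[K] V => (y : G) • f ((y : G)⁻¹ • v)) hg
            simp only [LinearMap.sum_apply, LinearMap.smul_apply, LinearMap.zero_apply,
              smul_zero, Finset.smul_sum] at h0
            refine (Finset.sum_congr rfl fun a _ => ?_).trans h0
            rw [hBlin _ (hEB y.2), smul_comm]
            congr 1
            show ((b (QuotientGroup.mk y) a : Kˣ) : K) • (r a : G) • v =
              (y : G) • (r a : G) • (y : G)⁻¹ • v
            have hb' := hb y (r a)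
            rw [show (QuotientGroup.mk (r a) : W) = a from QuotientGroup.out_eq' a] at hb'
            rw [hb', hιv]
            simp only [c, r, ← mul_smul]
            congr 1
            group
        have hli := (linearIndependent_monoidHom W K).comp χW hχinj
        rw [Fintype.linearIndependent_iff] at hli
        have hz : g i • T i v = 0 := by
          refine (Module.forall_dual_apply_eq_zero_iff K _).1 fun φ => ?_
          refine hli (fun a => φ (g a • T a v)) (funext fun z => ?_) i
          have := congrArg φ (hall z)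
          simp only [map_sum, map_smul, map_zero] at this
          simp only [Finset.sum_apply, Pi.smul_apply, Function.comp_apply, Pi.zero_apply]
          refine (Finset.sum_congr rfl fun a _ => ?_).trans this
          rw [map_smul]
          exact mul_comm _ _
        refine (smul_eq_zero.1 hz).resolve_right fun h => hv ?_
        exact (smul_eq_zero_iff_eq _).1 h
      have := hTind.fintype_card_le_finrank
      rwa [Module.finrank_linearMap, ← Nat.card_eq_fintype_card] at this
    have hdvd : ∀ r, r.Prime → r ∣ e → r ∣ q - 1 := by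
      intro r hr hre
      haveI := Fact.mk hr
      obtain ⟨a, ha⟩ := exists_prime_orderOf_dvd_card' (G := W) r
        (show r ∣ Nat.card W by rw [← hw, hwe]; exact dvd_mul_of_dvd_left hre _)
      obtain ⟨z, hz⟩ : ∃ z, b a z ≠ 1 := by
        by_contra hno
        push Not at hno
        rw [halt.nondeg a hno, orderOf_one] at ha
        exact hr.one_lt.ne ha
      have : orderOf (b a z) = r := by
        refine orderOf_eq_prime ?_ hz
        rw [← MonoidHom.pow_apply, ← map_pow, ← ha, pow_orderOf_eq_one, map_one]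
        rfl
      rw [← this, hq, ← Nat.card_units]
      exact orderOf_dvd_natCard _
    have hq4 : 4 ≤ q := by
      obtain ⟨r, hr, hre⟩ := Nat.exists_prime_and_dvd (show e ≠ 1 by omega)
      have h1 := Nat.le_of_dvd (by omega) (hdvd r hr hre)
      have h2 : r ≠ 2 := fun h2 => by
        subst h2
        obtain ⟨k, hk⟩ := heodd
        omega
      have := hr.two_le
      omega
    have hAw : Nat.card A ≤ w * w := by
      letI : DistribMulAction A (Additive W) :=
        { smul := fun a x => Additive.ofMul ((a : MulAut W) (Additive.toMul x))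
          one_smul := fun x => rfl
          mul_smul := fun a a' x => rfl
          smul_zero := fun a => congrArg Additive.ofMul (map_one (a : MulAut W))
          smul_add := fun a x y =>
            congrArg Additive.ofMul (map_mul (a : MulAut W) (Additive.toMul x) (Additive.toMul y)) }
      have hlt : Nat.card A + Nat.card (Additive W) < Nat.card G + Nat.card V := by
        refine Nat.add_lt_add_of_le_of_lt (Nat.le_of_dvd Nat.card_pos (Subgroup.card_range_dvd act)) ?_
        rw [Nat.card_congr (Additive.toMul (α := W)), ← hw, hwe, ← hQ, hV]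
        have h2m : m < 2 ^ m := Nat.lt_two_pow_self
        calc e * e ≤ m * m := Nat.mul_le_mul hem hem
          _ < 2 ^ m * 2 ^ m := Nat.mul_lt_mul_of_lt_of_lt h2m h2m
          _ ≤ q ^ m := by rw [← mul_pow]; exact Nat.pow_le_pow_left (by omega) _
      have hcr : CR A (Additive W) := by
        intro T hT
        let T' : Subgroup W := AddSubgroup.toSubgroup' T
        obtain ⟨h1, h2⟩ := hperp T' fun a ha x hx => hT ⟨a, ha⟩ (Additive.ofMul x) hx
        refine ⟨(perp b T').toAddSubgroup, fun a x hx => h1 _ a.2 _ hx, ?_, ?_⟩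
        · refine (AddSubgroup.eq_bot_iff_forall _).2 fun x hx => ?_
          have : Additive.toMul x ∈ T' ⊓ perp b T' := ⟨hx.1, hx.2⟩
          rw [h2, Subgroup.mem_bot] at this
          exact this
        · refine eq_top_iff.2 fun x _ => ?_
          obtain ⟨s, hs, t, ht, hst⟩ := Subgroup.mem_sup.1
            (halt.sup_perp h2 ▸ Subgroup.mem_top (Additive.toMul x))
          exact AddSubgroup.mem_sup.2 ⟨Additive.ofMul s, hs, Additive.ofMul t, ht,
            congrArg Additive.ofMul hst⟩
      obtain ⟨v₁, v₂, hreg⟩ := ih A (Additive W) hlt hAodd hcr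
      rw [hw, ← Nat.card_prod, ← Nat.card_congr (Equiv.prodCongr (Additive.toMul (α := W))
        (Additive.toMul (α := W)))]
      refine Nat.card_le_card_of_injective (fun a : A => (a • v₁, a • v₂)) fun a a' haa => ?_
      simp only [Prod.ext_iff] at haa
      have := hreg (a'⁻¹ * a) (by rw [mul_smul, haa.1, inv_smul_smul])
        (by rw [mul_smul, haa.2, inv_smul_smul])
      refine Subtype.ext (MulEquiv.ext fun z => ?_)
      have hz := this (Additive.ofMul z)
      rw [mul_smul, inv_smul_eq_iff] at hz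
      exact congrArg Additive.toMul hz
    have hhw : h ≤ (e * e) ^ 2 := by
      rw [pow_two, ← hwe]
      exact (Nat.le_of_dvd Nat.card_pos (Subgroup.card_dvd_of_le hHA)).trans hAw
    have hsmall : ∀ r k a cc : ℕ, r.Prime → e = r ^ k →
        (∀ j, j * j ∣ r ^ (2 * k) → j = 1 ∨ j * j = r ^ (2 * k) ∨
          ∀ s, s.Prime → s ≠ 2 → s ∣ r ^ (2 * k) - j * j → s = r) →
        r ^ (2 * k) - 1 = 2 ^ a * cc → (∀ d, d ∣ cc → d % r = 1 → d = 1) → 0 < cc → h ≤ cc := by
      intro r k a cc hr hek hsq hcc hd1 hcc0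
      refine Nat.le_of_dvd hcc0 (halt.card_dvd_of_small A H hHA ?_ ?_ hHodd hperp hr ?_ hsq hcc hd1)
      · rintro _ ⟨g, rfl⟩ _ ⟨x, hx, rfl⟩
        exact ⟨g * x * g⁻¹, hBn.conj_mem x hx g, by rw [map_mul, map_mul, map_inv]⟩
      · rintro _ ⟨g, hg, rfl⟩ x y
        refine Units.ext ?_
        rw [hequiv, S.σ_centralizer g hg]
      · rw [← hw, hwe, hek, ← pow_add, two_mul]
    have hpp : IsPrimePow q := (isPrimePow_nat_iff q).2 ⟨p, f, hp, hf0, (hq ▸ hpf).symm⟩
    have main := arith_main heodd he3 hem hq4 hpp hdvd hhw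
      (fun h3 => hsmall 3 1 3 1 (by norm_num) (by simpa using h3)
        (fun j hj => by
          have : j ≤ 3 := by
            have h1 := Nat.le_of_dvd (by norm_num) hj
            norm_num at h1
            nlinarith
          interval_cases j <;> first
            | exact Or.inl rfl
            | exact Or.inr (Or.inl rfl)
            | exact absurd hj (by decide))
        (by norm_num) (fun d hd _ => Nat.dvd_one.1 hd) one_pos)
      (fun h5 => hsmall 5 1 3 3 (by norm_num) (by simpa using h5)
        (fun j hj => by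
          have : j ≤ 5 := by
            have h1 := Nat.le_of_dvd (by norm_num) hj
            norm_num at h1
            nlinarith
          interval_cases j <;> first
            | exact Or.inl rfl
            | exact Or.inr (Or.inl rfl)
            | exact absurd hj (by decide))
        (by norm_num)
        (fun d hd hd' => by
          have := Nat.le_of_dvd (by norm_num) hd
          interval_cases d <;> omega)
        (by norm_num))
      (fun h7 => hsmall 7 1 4 3 (by norm_num) (by simpa using h7)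
        (fun j hj => by
          have : j ≤ 7 := by
            have h1 := Nat.le_of_dvd (by norm_num) hj
            norm_num at h1
            nlinarith
          interval_cases j <;> first
            | exact Or.inl rfl
            | exact Or.inr (Or.inl rfl)
            | exact absurd hj (by decide))
        (by norm_num)
        (fun d hd hd' => by
          have := Nat.le_of_dvd (by norm_num) hd
          interval_cases d <;> omega)
        (by norm_num))
      (fun h9 => hsmall 3 2 4 5 (by norm_num) (by simpa using h9)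
        (fun j hj => by
          have : j ≤ 9 := by
            have h1 := Nat.le_of_dvd (by norm_num) hj
            norm_num at h1
            nlinarith
          interval_cases j <;> first
            | exact Or.inl rfl
            | exact Or.inr (Or.inl rfl)
            | exact absurd hj (by decide)
            | skip
          refine Or.inr (Or.inr ?_)
          norm_num
          intro s hs hs2 hdvd
          have h72 : s ∣ 2 ^ 3 * 3 ^ 2 := by norm_num; exact hdvd
          rcases hs.dvd_mul.1 h72 with h | h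
          · exact absurd ((Nat.prime_dvd_prime_iff_eq hs Nat.prime_two).1 (hs.dvd_of_dvd_pow h)) hs2
          · exact (Nat.prime_dvd_prime_iff_eq hs Nat.prime_three).1 (hs.dvd_of_dvd_pow h))
        (by norm_num)
        (fun d hd hd' => by
          have := Nat.le_of_dvd (by norm_num) hd
          interval_cases d <;> omega)
        (by norm_num))
    rw [← hwe, ← hV] at main
    obtain ⟨m1, m2, m3⟩ := main
    refine ⟨m1, m2, fun hd => Or.inl ?_⟩
    obtain ⟨h2d, hq8⟩ := index_facts hp hpf hdf hdodd hd hf0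
    calc 4 * (B.index * (q * w * h)) = 2 * (2 * B.index) * (q * w * h) := by ring
      _ ≤ 2 * q * (q * w * h) := by gcongr
      _ ≤ Q := m3 hq8
  obtain ⟨iA, iB, iC⟩ := hineq
  -- summation
  refine regVec_of_count ?_
  let X : G → ℕ := fun g => Nat.card (fixV V g) ^ 2
  let s₀ := Finset.univ.erase (1 : G)
  let sE := s₀.filter fun g => g ∈ E
  let sB := s₀.filter fun g => g ∉ E ∧ g ∈ B
  let sA := s₀.filter fun g => g ∉ B
  have hsplit : ∑ g ∈ s₀, X g = ∑ g ∈ sE, X g + ∑ g ∈ sB, X g + ∑ g ∈ sA, X g := by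
    simp only [sE, sB, sA, Finset.sum_filter, ← Finset.sum_add_distrib]
    refine Finset.sum_congr rfl fun g _ => ?_
    by_cases h1 : g ∈ E
    · simp [h1, hEB h1]
    · by_cases h2 : g ∈ B <;> simp [h1, h2]
  have hQ0 : 0 < Q := Nat.card_pos
  have hcardle : ∀ (s : Finset G) (T : Subgroup G), (∀ g ∈ s, g ∈ T) → s.card ≤ Nat.card T := by
    intro s T h
    rw [Nat.card_eq_fintype_card, Fintype.card_subtype]
    exact Finset.card_le_card fun g hg => Finset.mem_filter.2 ⟨Finset.mem_univ _, h g hg⟩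
  have sumE : 16 * ∑ g ∈ sE, X g ≤ 3 * Q ^ 2 := by
    refine sum_bound sE X (n := q * w) (Nat.mul_pos (by omega) Nat.card_pos)
      ((hcardle sE E fun g hg => (Finset.mem_filter.1 hg).2).trans hEle) fun g hg => ?_
    obtain ⟨hg0, hgE⟩ := Finset.mem_filter.1 hg
    have hx : X g ^ 3 ≤ Q ^ 2 := by
      show (Nat.card (fixV V g) ^ 2) ^ 3 ≤ Q ^ 2
      rw [← pow_mul, mul_comm, pow_mul]
      exact Nat.pow_le_pow_left (hbE g hgE (Finset.mem_erase.1 hg0).1) _
    refine le_of_cube hx ?_
    calc (16 * (q * w)) ^ 3 * Q ^ 2 ≤ 27 * Q ^ 4 * Q ^ 2 := Nat.mul_le_mul_right _ iA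
      _ = (3 * Q ^ 2) ^ 3 := by ring
  have hBemp : h ≤ 1 → ∑ g ∈ sB, X g = 0 := by
    intro hh1
    refine Finset.sum_eq_zero fun g hg => absurd (Finset.mem_filter.1 hg).2 fun hgg => hgg.1 ?_
    have h1 : h = 1 := le_antisymm hh1 Nat.card_pos
    have hEB' : E = B := Subgroup.eq_of_le_of_card_ge hEB (by rw [hBcard, h1, one_mul])
    rw [hEB']
    exact hgg.2
  have sumB : 2 * ∑ g ∈ sB, X g ≤ Q ^ 2 := by
    rcases iB with hh1 | hh1
    · rw [hBemp hh1]; simp
    refine sum_bound sB X (n := q * w * h)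
      (Nat.mul_pos (Nat.mul_pos (by omega) Nat.card_pos) Nat.card_pos)
      ((hcardle sB B fun g hg => (Finset.mem_filter.1 hg).2.2).trans hBle) fun g hg => ?_
    obtain ⟨-, hgE, hgB⟩ := Finset.mem_filter.1 hg
    have := le_of_cube (a := 2 * (q * w * h)) (b := Q ^ 2) (k := 1) (hbB g hgB hgE) (by
      calc (2 * (q * w * h)) ^ 3 * (Q ^ 2) ^ 2 = 8 * (q * w * h) ^ 3 * (Q ^ 2) ^ 2 := by ring
        _ ≤ Q ^ 2 * (Q ^ 2) ^ 2 := Nat.mul_le_mul_right _ hh1
        _ = (1 * Q ^ 2) ^ 3 := by ring)
    rwa [one_mul] at this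
  have sumA : 4 * ∑ g ∈ sA, X g ≤ Q ^ 2 ∨ (∑ g ∈ sB, X g = 0 ∧ 2 * ∑ g ∈ sA, X g ≤ Q ^ 2) := by
    by_cases hd : 1 < B.index
    · have key : ∀ a, a * (B.index * (q * w * h)) ≤ Q → a * ∑ g ∈ sA, X g ≤ Q ^ 2 := by
        intro a ha
        refine sum_bound sA X (n := B.index * (q * w * h))
          (Nat.mul_pos (by omega) (Nat.mul_pos (Nat.mul_pos (by omega) Nat.card_pos) Nat.card_pos))
          ?_ fun g hg => ?_
        · refine (Finset.card_le_univ sA).trans ?_
          rw [← Nat.card_eq_fintype_card, hGbound]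
          exact Nat.mul_le_mul_left _ hBle
        · rw [pow_two]
          exact Nat.mul_le_mul ha (hbA g (Finset.mem_filter.1 hg).2)
      rcases iC hd with h4 | ⟨hh1, h2⟩
      · exact Or.inl (key 4 h4)
      · exact Or.inr ⟨hBemp hh1, key 2 h2⟩
    · left
      have hB1 : B = ⊤ := Subgroup.index_eq_one.1 (by
        have := Subgroup.index_ne_zero_of_finite (H := B); omega)
      rw [Finset.sum_eq_zero fun g hg => absurd (hB1 ▸ Subgroup.mem_top g) (Finset.mem_filter.1 hg).2]
      simp
  show ∑ g ∈ s₀, X g < Q ^ 2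
  rw [hsplit]
  exact total_bound (pow_pos hQ0 2) sumE sumB sumA

end Cfsg.Agent.H52.RegPair
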